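import Mathlib
import Cfsg.Agent.PLocal.SigCoprime
import Cfsg.Agent.PLocal.PrimeCoreAmb
import Cfsg.Agent.Solv.Wielandt
import Cfsg.Agent.Solv.HallPi
import Cfsg.Agent.Transfer.PCompl
import Cfsg.Agent.Transfer.Focal
import Cfsg.Agent.S3073

/-! A non-cyclic group of order `q ^ 2` acting coprimely with abelian centralizers: the minimal
counterexample to solvability, first properties. -/

set_option autoImplicit false
set_option linter.unusedSectionVars false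

namespace Cfsg.Agent.WardAb

open Cfsg Cfsg.Agent.FT Cfsg.Agent.PLocal Cfsg.Agent.PLocal.Sig Subgroup
open Cfsg.Agent.PLocal.Amb (IsSyl)

variable {X : Type*} [Group X]

/-- The minimal counterexample inside an ambient group. -/
structure Hp (q : ℕ) (A G : Subgroup X) : Prop where
  ea : IsElementaryAbelian q A
  card : Nat.card A = q ^ 2
  norm : A ≤ 𝒩(G)
  cop : ¬ q ∣ Nat.card G
  fpf : G ⊓ 𝒞(A) = ⊥
  ab : ∀ a ∈ A, a ≠ 1 → G ⊓ 𝒞[a] ≤ 𝒞(G ⊓ 𝒞[a])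
  solv : ∀ H : Subgroup X, H < G → A ≤ 𝒩(H) → Group.IsSolvable H
  simp : ∀ N : Subgroup X, N ≤ G → A ≤ 𝒩(N) → G ≤ 𝒩(N) → N = ⊥ ∨ N = G
  nsolv : ¬ Group.IsSolvable G

variable [Finite X] {q : ℕ} [hq : Fact q.Prime] {A G : Subgroup X}

theorem Hp.hyp (h : Hp q A G) {a : X} (ha : a ∈ A) (h1 : a ≠ 1) : Hyp q (zpowers a) A :=
  hyp_of_card (zpowers_le.2 ha) (by rw [ea_card_zpowers h.ea ha h1, h.card, sq])

theorem Hp.zp_eq (h : Hp q A G) {a b : X} (ha : a ∈ A) (h1 : a ≠ 1) (hb : b ∈ zpowers a)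
    (hb1 : b ≠ 1) : zpowers b = zpowers a :=
  eq_of_le_of_card_ge (zpowers_le.2 hb) (by
    rw [ea_card_zpowers h.ea ha h1, ea_card_zpowers h.ea (zpowers_le.2 ha hb) hb1])

theorem Hp.cent_eq (h : Hp q A G) {a b : X} (ha : a ∈ A) (h1 : a ≠ 1) (hb : b ∈ zpowers a)
    (hb1 : b ≠ 1) : 𝒞[b] = 𝒞[a] := by
  rw [← cent_zpowers, h.zp_eq ha h1 hb hb1, cent_zpowers]

theorem ne_one_of_not_mem {a b : X} (hb : b ∉ zpowers a) : b ≠ 1 := fun e => hb (e ▸ one_mem _)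

theorem Hp.ind_symm (h : Hp q A G) {a b : X} (h1 : a ≠ 1) (hb : b ∈ A)
    (hab : b ∉ zpowers a) : a ∉ zpowers b := fun e =>
  hab (h.zp_eq hb (ne_one_of_not_mem hab) e h1 ▸ mem_zpowers b)

theorem Hp.inf_eq_bot (h : Hp q A G) {a b : X} (ha : a ∈ A) (h1 : a ≠ 1) (hb : b ∈ A)
    (hab : b ∉ zpowers a) {U : Subgroup X} (hU : U ≤ G) (hUa : U ≤ 𝒞[a]) (hUb : U ≤ 𝒞[b]) :
    U = ⊥ := by
  rw [eq_bot_iff, ← h.fpf, ← (h.hyp ha h1).sup_zpowers hb hab, cent_sup, cent_zpowers, cent_zpowers]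
  exact le_inf hU (le_inf hUa hUb)

theorem Hp.cop' (h : Hp q A G) {K : Subgroup X} (hK : K ≤ G) :
    (Nat.card A).Coprime (Nat.card K) := ea_cop h.ea (not_dvd_of_le hK h.cop)

theorem Hp.gen (h : Hp q A G) {K L : Subgroup X} (hK : K ≤ G) (hA : A ≤ 𝒩(K))
    (hL : ∀ a ∈ A, a ≠ 1 → K ⊓ 𝒞[a] ≤ L) : K ≤ L :=
  le_of_cent1_le h.ea h.card.ge hA (not_dvd_of_le hK h.cop) hL

theorem Hp.gen' (h : Hp q A G) {K L : Subgroup X} (hK : K ≤ G) (hA : A ≤ 𝒩(K)) {a : X}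
    (ha : a ∈ A) (h1 : a ≠ 1) (hL : K ⊓ 𝒞[a] ≤ L)
    (hL' : ∀ b ∈ A, b ∉ zpowers a → K ⊓ 𝒞[b] ≤ L) : K ≤ L := by
  refine h.gen hK hA fun b hb hb1 => ?_
  by_cases e : b ∈ zpowers a
  · rwa [h.cent_eq ha h1 e hb1]
  · exact hL' b hb e

theorem Hp.exists_cent (h : Hp q A G) {K : Subgroup X} (hK : K ≤ G) (hA : A ≤ 𝒩(K))
    (h1 : K ≠ ⊥) : ∃ a ∈ A, a ≠ 1 ∧ K ⊓ 𝒞[a] ≠ ⊥ := by
  by_contra hc
  push Not at hc
  exact h1 (le_bot_iff.1 (h.gen hK hA fun a ha ha1 => (hc a ha ha1).le))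

theorem Hp.norm_c (h : Hp q A G) {K : Subgroup X} (hA : A ≤ 𝒩(K)) {a : X} (ha : a ∈ A) :
    A ≤ 𝒩(K ⊓ 𝒞[a]) := norm_inf hA (ea_norm_cent1 h.ea ha)

theorem Hp.comm (h : Hp q A G) {a : X} (ha : a ∈ A) (h1 : a ≠ 1) {U V : Subgroup X} (hU : U ≤ G)
    (hV : V ≤ G) : U ⊓ 𝒞[a] ≤ 𝒞(V ⊓ 𝒞[a]) :=
  (inf_le_inf_right _ hU).trans ((h.ab a ha h1).trans (cent_anti (inf_le_inf_right _ hV)))

/-- The Frobenius group `U ⟨b⟩` acting on `V`. -/
theorem Hp.frob (h : Hp q A G) {p r : ℕ} [Fact p.Prime] [Fact r.Prime] (hpr : p ≠ r) {a b : X}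
    (ha : a ∈ A) (h1 : a ≠ 1) (hb : b ∈ A) (hab : b ∉ zpowers a) {U V : Subgroup X} (hU : U ≤ G)
    (hUA : A ≤ 𝒩(U)) (hUa : U ≤ 𝒞[a]) (hUp : IsPGroup p U) (hV : V ≤ G) (hVA : A ≤ 𝒩(V))
    (hVr : IsPGroup r V) (hUV : U ≤ 𝒩(V)) (hc : V ⊓ 𝒞[b] ≤ 𝒞(U)) : V ≤ 𝒞(U) := by
  have hb1 := ne_one_of_not_mem hab
  have hE : zpowers b ≤ A := zpowers_le.2 hb
  have hcop : (Nat.card V).Coprime (Nat.card ↥(U ⊔ zpowers b)) := by
    rw [sup_comm]
    refine Nat.Coprime.coprime_dvd_right (Grp.card_sup_dvd_of_le_normalizer (hE.trans hUA))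
      (Nat.Coprime.mul_right ((h.cop' hV).symm.coprime_dvd_right (card_dvd_of_le hE)) ?_)
    exact cop_of_isPGroup hVr (not_dvd_of_isPGroup hpr hUp)
  have key := Solv.Wielandt.frobenius_fixed_formula U (zpowers b) (hE.trans hUA)
    (Solv.isSolvable_of_isPGroup hUp) (fun e he he1 u hu hc => by
      have h2 : zpowers u = ⊥ := h.inf_eq_bot ha h1 hb hab ((zpowers_le.2 hu).trans hU)
        ((zpowers_le.2 hu).trans hUa) (by
          rw [← h.cent_eq hb hb1 he he1]; exact zpowers_le.2 (mem_cent1_iff.2 hc.symm))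
      exact zpowers_eq_bot.1 h2) V (sup_le hUV (hE.trans hVA)) (Solv.isSolvable_of_isPGroup hVr) hcop
  have e : V ⊓ 𝒞(U ⊔ zpowers b) = V ⊓ 𝒞(zpowers b) := by
    rw [cent_sup, cent_zpowers]
    exact le_antisymm (inf_le_inf_left _ inf_le_right)
      (le_inf inf_le_left (le_inf hc inf_le_right))
  rw [e] at key
  have k2 := Nat.eq_of_mul_eq_mul_left (pow_pos Nat.card_pos _) key
  exact (eq_of_le_of_card_ge (inf_le_left : V ⊓ 𝒞(U) ≤ V) k2.le).ge.trans inf_le_right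

/-- An invariant Sylow subgroup. -/
def Syl (A G : Subgroup X) (p : ℕ) (P : Subgroup X) : Prop := IsSyl p P G ∧ A ≤ 𝒩(P)

theorem Hp.exists_syl (h : Hp q A G) (p : ℕ) [Fact p.Prime] : ∃ P, Syl A G p P :=
  exists_invSyl h.norm (h.cop' le_rfl) (Or.inl (ea_solv h.ea)) p

theorem Hp.le_syl (h : Hp q A G) {p : ℕ} [Fact p.Prime] {P U : Subgroup X} (hP : Syl A G p P)
    (hU : U ≤ G) (hUp : IsPGroup p U) (hUA : A ≤ 𝒩(U)) : U ≤ P := by
  obtain ⟨c, hc, e⟩ := exists_le_cj_invSyl h.norm (h.cop' le_rfl) (Or.inl (ea_solv h.ea)) hP.1 hP.2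
    hU hUp hUA
  rw [h.fpf, mem_bot] at hc
  rwa [hc, cj_one] at e

theorem Hp.syl_inf (h : Hp q A G) {p : ℕ} [Fact p.Prime] {P H : Subgroup X} (hP : Syl A G p P)
    (hH : H ≤ G) (hHA : A ≤ 𝒩(H)) : IsSyl p (P ⊓ H) H :=
  invSyl_inf h.norm (h.cop' le_rfl) (Or.inl (ea_solv h.ea)) hP.1 hP.2 hH hHA (h.fpf ▸ bot_le)

theorem Hp.norm_lt (h : Hp q A G) {U : Subgroup X} (hU : U ≤ G) (hUA : A ≤ 𝒩(U)) (h1 : U ≠ ⊥)
    (hs : Group.IsSolvable U) : G ⊓ 𝒩(U) < G := by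
  refine lt_of_le_of_ne inf_le_left fun e => ?_
  rcases h.simp U hU hUA (e.ge.trans inf_le_right) with e1 | e1
  · exact h1 e1
  · exact h.nsolv (e1 ▸ hs)

theorem Hp.not_compl (h : Hp q A G) {p : ℕ} [hp : Fact p.Prime] {P : Subgroup X}
    (hP : IsSyl p P G) (h1 : P ≠ ⊥) : ¬ HasNormalPComplement p G := by
  intro hc
  rw [Transfer.hasNormalPComplement_iff_coprime, ← card_subtype] at hc
  rcases h.simp _ (Amb.pRes_le p G) (h.norm.trans (Amb.normalizer_le_normalizer_pRes p G))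
    (Amb.le_normalizer_pRes p G) with e | e
  · exact h.nsolv (Solv.isSolvable_of_isPGroup (Amb.isPGroup_of_pRes_le IsPGroup.of_bot e.le))
  · rw [e] at hc
    exact h1 (hP.eq_bot_iff.2 ((Nat.Prime.coprime_iff_not_dvd hp.out).1 hc.symm))

/-- No non-trivial invariant Sylow subgroup is centralized by an element of `A`. -/
theorem Hp.not_le_cent (h : Hp q A G) {p : ℕ} [hp : Fact p.Prime] {P : Subgroup X}
    (hP : Syl A G p P) (h1 : P ≠ ⊥) {a : X} (ha : a ∈ A) (ha1 : a ≠ 1) : ¬ P ≤ 𝒞[a] := by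
  intro hc
  have hN : G ⊓ 𝒩(P) ≤ 𝒞(P) := by
    have hE : zpowers a ≤ A := zpowers_le.2 ha
    have hPE : P ≤ 𝒞(zpowers a) := by rwa [cent_zpowers]
    rw [← Solv.coprime_commutator_sup_centralizer (zpowers a) (G ⊓ 𝒩(P))
      (hE.trans (norm_inf h.norm (norm_norm hP.2)))
      ((h.cop' inf_le_left).coprime_dvd_left (card_dvd_of_le hE))
      (Or.inl (isSolvable_of_le hE (ea_solv h.ea)))]
    refine sup_le (comm_eq_bot_iff.1 (commutator_commutator_eq_bot_of_rotate ?_ ?_)) ?_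
    · rw [comm_eq_bot_iff.2 (le_cent_comm.1 hPE), commutator_bot_left]
    · exact comm_eq_bot_iff.2 ((comm_le_left inf_le_right).trans hPE)
    · rw [cent_zpowers]
      exact (h.comm ha ha1 inf_le_left hP.1.le).trans (cent_anti (le_inf le_rfl hc))
  obtain ⟨S, rfl⟩ := hP.1.exists_sylow_map
  refine h.not_compl hP.1 h1 (Transfer.hasNormalPComplement_of_normalizer_le_centralizer S ?_)
  rw [Amb.normalizer_eq_subgroupOf, Amb.centralizer_eq_subgroupOf]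
  exact fun x hx => hN ⟨x.2, hx⟩

/-- For odd `p`, all but at most one of the cyclic subgroups of `A` have fixed points on the
invariant Sylow `p`-subgroup. -/
theorem Hp.big (h : Hp q A G) {p : ℕ} [hp : Fact p.Prime] (hp2 : p ≠ 2) {P : Subgroup X}
    (hP : Syl A G p P) (h1 : P ≠ ⊥) :
    ∃ a ∈ A, a ≠ 1 ∧ ∀ b ∈ A, b ∉ zpowers a → P ⊓ 𝒞[b] ≠ ⊥ := by
  by_contra hc
  push Not at hc
  have key : ∀ Q : Subgroup X, Q ≤ P → A ≤ 𝒩(Q) → ∀ g ∈ G ⊓ 𝒩(Q), (orderOf g).Coprime p →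
      g ∈ 𝒞(Q) := by
    intro Q hQ hQA g hg hgp
    have hNA : A ≤ 𝒩(G ⊓ 𝒩(Q)) := norm_inf h.norm (norm_norm hQA)
    have hle : G ⊓ 𝒩(Q) ≤ 𝒞(Q) ⊔ (P ⊓ 𝒩(Q)) := by
      refine Solv.le_of_forall_sylow_le _ _ fun r _ => ?_
      obtain ⟨R, hR⟩ := Solv.exists_invariant_sylow A _ hNA (h.cop' inf_le_left)
        (Or.inl (ea_solv h.ea)) r
      refine ⟨R, ?_⟩
      have hR1 := map_subtype_le (R : Subgroup ↥(G ⊓ 𝒩(Q)))
      have hR2 : IsPGroup r ((R : Subgroup ↥(G ⊓ 𝒩(Q))).map (G ⊓ 𝒩(Q)).subtype) := R.2.map _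
      generalize (R : Subgroup ↥(G ⊓ 𝒩(Q))).map (G ⊓ 𝒩(Q)).subtype = R0 at hR hR1 hR2
      have hR3 : R0 ≤ G := hR1.trans inf_le_left
      by_cases e : r = p
      · subst e
        exact (le_inf (h.le_syl hP hR3 hR2 hR) (hR1.trans inf_le_right)).trans le_sup_right
      · refine (h.gen hR3 hR fun a ha ha1 => ?_).trans le_sup_left
        obtain ⟨b, hb, hab, hPb⟩ := hc a ha ha1
        refine le_cent_comm.1 (h.frob e ha ha1 hb hab (inf_le_left.trans hR3) (h.norm_c hR ha)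
          inf_le_right (hR2.to_le inf_le_left) (hQ.trans hP.1.le) hQA (hP.1.pgrp.to_le hQ)
          (inf_le_left.trans (hR1.trans inf_le_right)) ?_)
        exact ((inf_le_inf_right _ hQ).trans hPb.le).trans bot_le
    exact Amb.pRes_sup_le (hP.1.pgrp.to_le inf_le_left) (inf_le_right.trans (norm_cent le_rfl))
      (Amb.mem_pRes (hle hg) hgp)
  obtain ⟨K, hK, -, hKG⟩ := S3073.result p hp2 P hP.1.pgrp
  obtain ⟨S, hS⟩ := hP.1.exists_sylow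
  have hPS : (S : Subgroup G).map G.subtype = P := by rw [hS, Amb.map_subgroupOf_of_le hP.1.le]
  let e : ↥(S : Subgroup G) ≃* P :=
    ((S : Subgroup G).equivMapOfInjective _ G.subtype_injective).trans (MulEquiv.subgroupCongr hPS)
  refine h.not_compl hP.1 h1 ((hKG G S e).2 fun g hg hgp => ?_)
  have hQ : ((K.comap (e : ↥(S : Subgroup G) →* P)).map (S : Subgroup G).subtype).map G.subtype =
      K.map P.subtype := by
    ext x
    simp only [mem_map, mem_comap]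
    constructor
    · rintro ⟨_, ⟨y, hy, rfl⟩, rfl⟩
      exact ⟨_, hy, rfl⟩
    · rintro ⟨y, hy, rfl⟩
      refine ⟨_, ⟨e.symm y, by simpa using hy, rfl⟩, ?_⟩
      exact congrArg Subtype.val (e.apply_symm_apply y)
  rw [Amb.normalizer_eq_subgroupOf, hQ] at hg
  rw [Amb.centralizer_eq_subgroupOf, hQ]
  refine key _ (map_subtype_le _) (hP.2.trans ?_) g ⟨g.2, hg⟩ (by rwa [orderOf_coe])
  exact Grp.normalizer_le_normalizer_map_of_characteristic P K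

end Cfsg.Agent.WardAb
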