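import Mathlib
import Cfsg.Agent.Solv.WardAb1
import Cfsg.Agent.FH.Frob

/-! A non-cyclic group of order `q ^ 2` acting coprimely with abelian centralizers: invariant
`{p, r}`-subgroups of the minimal counterexample. -/

set_option autoImplicit false
set_option linter.unusedSectionVars false

namespace Cfsg.Agent.WardAb

open Cfsg Cfsg.Agent.FT Cfsg.Agent.PLocal Cfsg.Agent.PLocal.Sig Subgroup
open Cfsg.Agent.PLocal.Amb (IsSyl)
open scoped commutatorElement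

variable {X : Type*} [Group X]

/-- An invariant `π`-subgroup. -/
structure Mem (A G : Subgroup X) (π : Set ℕ) (H : Subgroup X) : Prop where
  le : H ≤ G
  inv : A ≤ 𝒩(H)
  pi : ∀ s : ℕ, s.Prime → s ∣ Nat.card H → s ∈ π

/-- A maximal invariant `π`-subgroup. -/
def Mx (A G : Subgroup X) (π : Set ℕ) (L : Subgroup X) : Prop :=
  Mem A G π L ∧ ∀ H, Mem A G π H → L ≤ H → H ≤ L

/-- Two invariant Sylow subgroups that lie in no common invariant `{p, r}`-subgroup. -/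
structure Pr (q : ℕ) (A G : Subgroup X) (π : Set ℕ) (p r : ℕ) (P R : Subgroup X) : Prop where
  h : Hp q A G
  ne : p ≠ r
  pi : ∀ s, s ∈ π ↔ s = p ∨ s = r
  sP : Syl A G p P
  sR : Syl A G r R
  no : ∀ H, Mem A G π H → P ≤ H → R ≤ H → False

variable [Finite X] {q : ℕ} [hq : Fact q.Prime] {A G : Subgroup X} {π : Set ℕ} {p r : ℕ}
  [hp : Fact p.Prime] [hr : Fact r.Prime] {P R : Subgroup X}

theorem Pr.symm (c : Pr q A G π p r P R) : Pr q A G π r p R P :=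
  ⟨c.h, c.ne.symm, fun s => (c.pi s).trans or_comm, c.sR, c.sP, fun H h h1 h2 => c.no H h h2 h1⟩

theorem Mem.of_le {H K : Subgroup X} (h : Mem A G π H) (hK : K ≤ H) (hA : A ≤ 𝒩(K)) :
    Mem A G π K := ⟨hK.trans h.le, hA, Solv.Pi.pi_of_dvd (card_dvd_of_le hK) h.pi⟩

theorem Mem.sup {H K : Subgroup X} (h : Mem A G π H) (hK : Mem A G π K) (hn : H ≤ 𝒩(K)) :
    Mem A G π (H ⊔ K) := ⟨sup_le h.le hK.le, norm_sup h.inv hK.inv,
  Solv.Pi.pi_of_dvd (Grp.card_sup_dvd_of_le_normalizer hn) (Solv.Pi.pi_mul h.pi hK.pi)⟩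

theorem Mem.exists_mx {H : Subgroup X} (h : Mem A G π H) : ∃ L, Mx A G π L ∧ H ≤ L := by
  obtain ⟨L, h1, h2⟩ := exists_maximal_ge_of_wellFoundedGT (Mem A G π) H h
  exact ⟨L, ⟨h2.1, fun K hK hle => h2.2 hK hle⟩, h1⟩

theorem Pr.mem (c : Pr q A G π p r P R) {U : Subgroup X} (hU : U ≤ P) (hA : A ≤ 𝒩(U)) :
    Mem A G π U := by
  refine ⟨hU.trans c.sP.1.le, hA, fun s hs hd => (c.pi s).2 (Or.inl ?_)⟩
  obtain ⟨n, hn⟩ := (c.sP.1.pgrp.to_le hU).exists_card_eq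
  exact (Nat.prime_dvd_prime_iff_eq hs hp.out).1 (hs.dvd_of_dvd_pow (hn ▸ hd))

theorem Pr.solv (c : Pr q A G π p r P R) {H : Subgroup X} (h : Mem A G π H) :
    Group.IsSolvable H :=
  c.h.solv H (lt_of_le_of_ne h.le fun e => c.no H h (e ▸ c.sP.1.le) (e ▸ c.sR.1.le)) h.inv

theorem Pr.ne_bot (c : Pr q A G π p r P R) : P ≠ ⊥ := fun e =>
  c.no R (c.symm.mem le_rfl c.sR.2) (e ▸ bot_le) le_rfl

theorem Pr.inf (c : Pr q A G π p r P R) {U V : Subgroup X} (hU : IsPGroup p U)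
    (hV : IsPGroup r V) : U ⊓ V = ⊥ := inf_eq_bot_of_not_dvd hU (not_dvd_of_isPGroup c.ne.symm hV)

theorem Pr.join (c : Pr q A G π p r P R) {H K U : Subgroup X} (hH : Mem A G π H)
    (hK : Mem A G π K) (hU : Mem A G π U) (h1 : U ≠ ⊥) (hHU : H ≤ 𝒩(U)) (hKU : K ≤ 𝒩(U)) :
    Mem A G π (H ⊔ K) := by
  have hNA : A ≤ 𝒩(G ⊓ 𝒩(U)) := norm_inf c.h.norm (norm_norm hU.inv)
  have := c.h.solv _ (c.h.norm_lt hU.le hU.inv h1 (c.solv hU)) hNA
  have hcop := c.h.cop' (inf_le_left : G ⊓ 𝒩(U) ≤ G)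
  obtain ⟨W, hW, hWA, hHW⟩ := Solv.Pi.exists_invariant_hallOf_ge hNA hcop (le_inf hH.le hHU)
    hH.inv hH.pi
  obtain ⟨W', hW', hWA', hKW⟩ := Solv.Pi.exists_invariant_hallOf_ge hNA hcop (le_inf hK.le hKU)
    hK.inv hK.pi
  obtain ⟨x, hx, e⟩ := Solv.Pi.invariant_hallOf_conj hNA hcop hW hW' hWA hWA'
  have hx1 : x = 1 := mem_bot.1 (c.h.fpf ▸ (⟨hx.1.1, hx.2⟩ : x ∈ G ⊓ 𝒞(A)))
  rw [hx1, map_one, one_smul] at e
  exact Mem.of_le ⟨hW.1.trans inf_le_left, hWA, hW.2.1⟩ (sup_le hHW (e ▸ hKW))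
    (norm_sup hH.inv hK.inv)

theorem Pr.le_mx (c : Pr q A G π p r P R) {L H U : Subgroup X} (hL : Mx A G π L)
    (hH : Mem A G π H) (hU : Mem A G π U) (h1 : U ≠ ⊥) (hLU : L ≤ 𝒩(U)) (hHU : H ≤ 𝒩(U)) :
    H ≤ L := le_sup_right.trans (hL.2 _ (c.join hL.1 hH hU h1 hLU hHU) le_sup_left)

theorem Pr.pgrp (c : Pr q A G π p r P R) {M D : Subgroup X} (hM : Mem A G π M) (hD : D ≤ M)
    (h : ¬ p ∣ Nat.card D) : IsPGroup r D :=
  IsPGroup.of_card (Nat.eq_prime_pow_of_unique_prime_dvd Nat.card_pos.ne' fun {s} hs hd =>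
    ((c.pi s).1 (hM.pi s hs (hd.trans (card_dvd_of_le hD)))).resolve_left fun e => h (e ▸ hd))

theorem Pr.core_le (c : Pr q A G π p r P R) {M : Subgroup X} (hM : Mem A G π M) :
    (pPrimeCore p M).map M.subtype ≤ pCoreOf r M :=
  Amb.le_pCoreOf (c.pgrp hM (map_subtype_le _) ((Nat.Prime.coprime_iff_not_dvd hp.out).1
    (Grp.map_pPrimeCore_coprime p _).symm)) (map_subtype_le _) (Amb.le_normalizer_map_subtype _)

theorem Mem.core {L : Subgroup X} (h : Mem A G π L) (s : ℕ) : Mem A G π (pCoreOf s L) :=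
  h.of_le (Amb.pCoreOf_le s L) (h.inv.trans (Amb.normalizer_le_normalizer_pCoreOf s L))

theorem Mem.zcore {L : Subgroup X} (h : Mem A G π L) (s : ℕ) : Mem A G π 𝒵(pCoreOf s L) :=
  (h.core s).of_le inf_le_left (norm_center (h.core s).inv)

theorem z_ne_bot {T : Subgroup X} (hT : IsPGroup p T) (h : T ≠ ⊥) : 𝒵(T) ≠ ⊥ :=
  Amb.inf_centralizer_ne_bot hT hT (le_norm_self T) h

theorem Pr.cores (c : Pr q A G π p r P R) (L : Subgroup X) : pCoreOf p L ≤ 𝒞(pCoreOf r L) :=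
  le_cent_of_inf_eq_bot ((Amb.pCoreOf_le r L).trans (Amb.le_normalizer_pCoreOf p L))
    ((Amb.pCoreOf_le p L).trans (Amb.le_normalizer_pCoreOf r L))
    (c.inf (Amb.isPGroup_pCoreOf p L) (Amb.isPGroup_pCoreOf r L))

theorem Pr.step (c : Pr q A G π p r P R) {L M Y : Subgroup X} (hL : Mx A G π L)
    (hM : Mem A G π M) (h1 : pCoreOf p L ≠ ⊥) (hZ : 𝒵(pCoreOf p L) ≤ M) (hY : IsPGroup r Y)
    (hYM : Y ≤ M) (hYL : Y ≤ L) (hLY : L ≤ 𝒩(Y)) : Y ≤ pCoreOf r M := by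
  have hLZ : L ≤ 𝒩(𝒵(pCoreOf p L)) := norm_center (Amb.le_normalizer_pCoreOf p L)
  refine (PCA.le_pPrimeCore_of_normal_in_normalizer (PCA.isPConstrained_of_isSolvable (c.solv hM))
    hZ ((Amb.isPGroup_pCoreOf p L).to_le inf_le_left)
    ((Nat.Prime.coprime_iff_not_dvd hp.out).2 (not_dvd_of_isPGroup c.ne.symm hY)).symm
    (le_inf hYM (hYL.trans hLZ)) (le_trans ?_ hLY)).trans (c.core_le hM)
  exact c.le_mx hL (hM.of_le inf_le_left (norm_inf hM.inv (norm_norm (hL.1.zcore p).inv)))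
    (hL.1.zcore p) (z_ne_bot (Amb.isPGroup_pCoreOf p L) h1) hLZ inf_le_right

theorem Pr.half (c : Pr q A G π p r P R) {L M : Subgroup X} (hL : Mx A G π L) (hM : Mx A G π M)
    (h1 : pCoreOf p L ≠ ⊥) (h2 : pCoreOf r L ≠ ⊥) (hZ : 𝒵(pCoreOf p L) ≤ M)
    (hZ' : 𝒵(pCoreOf r L) ≤ M) : pCoreOf r M ≠ ⊥ ∧ pCoreOf p M ≤ L := by
  have hLZ : L ≤ 𝒩(𝒵(pCoreOf r L)) := norm_center (Amb.le_normalizer_pCoreOf r L)
  have k := c.step hL hM.1 h1 hZ ((Amb.isPGroup_pCoreOf r L).to_le inf_le_left) hZ'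
    (inf_le_left.trans (Amb.pCoreOf_le r L)) hLZ
  have k2 := z_ne_bot (Amb.isPGroup_pCoreOf r L) h2
  exact ⟨fun e => k2 (le_bot_iff.1 (e ▸ k)), c.le_mx hL (hM.1.core p) (hL.1.zcore r) k2 hLZ
    (le_norm_of_le_cent ((c.cores M).trans (cent_anti k)))⟩

/-- Bender's uniqueness theorem for a maximal member with two non-trivial cores. -/
theorem Pr.uniq (c : Pr q A G π p r P R) {L M : Subgroup X} (hL : Mx A G π L) (hM : Mx A G π M)
    (h1 : pCoreOf p L ≠ ⊥) (h2 : pCoreOf r L ≠ ⊥) (hZ : 𝒵(pCoreOf p L) ≤ M)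
    (hZ' : 𝒵(pCoreOf r L) ≤ M) : M ≤ L := by
  obtain ⟨a1, a2⟩ := c.half hL hM h1 h2 hZ hZ'
  obtain ⟨b1, b2⟩ := c.symm.half hL hM h2 h1 hZ' hZ
  have k1 : pCoreOf r M ≤ pCoreOf r L := c.step hM hL.1 b1 (inf_le_left.trans a2)
    (Amb.isPGroup_pCoreOf r M) b2 (Amb.pCoreOf_le r M) (Amb.le_normalizer_pCoreOf r M)
  have k2 : pCoreOf p M ≤ pCoreOf p L := c.symm.step hM hL.1 a1 (inf_le_left.trans b2)
    (Amb.isPGroup_pCoreOf p M) a2 (Amb.pCoreOf_le p M) (Amb.le_normalizer_pCoreOf p M)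
  have k3 : pCoreOf r L ≤ M := c.le_mx hM (hL.1.core r) (hM.1.core p) b1
    (Amb.le_normalizer_pCoreOf p M) (le_norm_of_le_cent ((c.symm.cores L).trans (cent_anti k2)))
  have k4 : pCoreOf r L ≤ pCoreOf r M := c.step hL hM.1 h1 hZ (Amb.isPGroup_pCoreOf r L) k3
    (Amb.pCoreOf_le r L) (Amb.le_normalizer_pCoreOf r L)
  exact c.le_mx hL hM.1 (hL.1.core r) h2 (Amb.le_normalizer_pCoreOf r L)
    (le_antisymm k1 k4 ▸ Amb.le_normalizer_pCoreOf r M)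

theorem Pr.key (c : Pr q A G π p r P R) {L H U : Subgroup X} (hL : Mx A G π L)
    (h1 : pCoreOf p L ≠ ⊥) (h2 : pCoreOf r L ≠ ⊥) (hH : Mem A G π H) (hU : Mem A G π U)
    (hU1 : U ≠ ⊥) (hHU : H ≤ 𝒩(U)) (hZ : 𝒵(pCoreOf p L) ≤ 𝒩(U)) (hZ' : 𝒵(pCoreOf r L) ≤ 𝒩(U)) :
    H ≤ L := by
  have k : Mem A G π (𝒵(pCoreOf p L) ⊔ 𝒵(pCoreOf r L)) :=
    hL.1.of_le (sup_le (inf_le_left.trans (Amb.pCoreOf_le p L))
      (inf_le_left.trans (Amb.pCoreOf_le r L))) (norm_sup (hL.1.zcore p).inv (hL.1.zcore r).inv)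
  obtain ⟨M, hM, hle⟩ := (c.join hH k hU hU1 hHU (sup_le hZ hZ')).exists_mx
  exact (le_sup_left.trans hle).trans (c.uniq hL hM h1 h2
    ((le_sup_left.trans le_sup_right).trans hle) ((le_sup_right.trans le_sup_right).trans hle))

omit [Finite X] in
theorem comm_le_cent {T E V : Subgroup X} (hE : E ≤ 𝒩(V)) (h : T ≤ 𝒞(V) ⊔ (𝒞(E) ⊓ 𝒩(V))) :
    ⁅T, E⁆ ≤ 𝒞(V) := by
  refine commutator_le.2 fun x hx e he => ?_
  obtain ⟨u, hu, v, hv, rfl⟩ := (mem_sup_norm (inf_le_right.trans (norm_cent le_rfl))).1 (h hx)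
  have h1 : e * v = v * e := hv.1 e he
  have h2 : ⁅u * v, e⁆ = u * (e * u⁻¹ * e⁻¹) := by
    rw [commutatorElement_def, mul_assoc u v e, ← h1]; group
  rw [h2]
  exact mul_mem hu ((cent_normIn_norm V).conj_mem (hE he) (inv_mem hu))

/-- A maximal member with two non-trivial cores contains the Sylow subgroup. -/
theorem Pr.mixed (c : Pr q A G π p r P R) {L : Subgroup X} (hL : Mx A G π L)
    (h1 : pCoreOf p L ≠ ⊥) (h2 : pCoreOf r L ≠ ⊥) : P ≤ L := by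
  by_contra hPL
  have h := c.h
  have hPG := c.sP.1.le
  have hO : pCoreOf p L ≤ P :=
    h.le_syl c.sP (hL.1.core p).le (Amb.isPGroup_pCoreOf p L) (hL.1.core p).inv
  have hZP : 𝒵(pCoreOf p L) ≤ P := inf_le_left.trans hO
  have hV := hL.1.zcore r
  have hVr : IsPGroup r ↥𝒵(pCoreOf r L) := (Amb.isPGroup_pCoreOf r L).to_le inf_le_left
  have hLV : L ≤ 𝒩(𝒵(pCoreOf r L)) := norm_center (Amb.le_normalizer_pCoreOf r L)
  obtain ⟨a, ha, ha1, hZa⟩ := h.exists_cent (inf_le_left.trans hPG) (norm_center c.sP.2)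
    (z_ne_bot c.sP.1.pgrp c.ne_bot)
  have hZaP : 𝒵(P) ⊓ 𝒞[a] ≤ P := inf_le_left.trans inf_le_left
  have hZaC : P ≤ 𝒞(𝒵(P) ⊓ 𝒞[a]) := le_cent_comm.1 (inf_le_left.trans inf_le_right)
  have hZaM := c.mem hZaP (h.norm_c (norm_center c.sP.2) ha)
  have hZaL : 𝒵(P) ⊓ 𝒞[a] ≤ L := c.le_mx hL hZaM (hL.1.core p) h1
    (Amb.le_normalizer_pCoreOf p L) (le_norm_of_le_cent (le_cent_comm.1 (hO.trans hZaC)))
  have k2 : ∀ b ∈ A, b ≠ 1 → 𝒵(pCoreOf r L) ⊓ 𝒞[b] ≠ ⊥ → P ⊓ 𝒞[b] ≤ L := fun b hb hb1 hne =>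
    c.key hL h1 h2 (c.mem inf_le_left (h.norm_c c.sP.2 hb))
      (hV.of_le inf_le_left (h.norm_c hV.inv hb)) hne
      (le_norm_of_le_cent (h.comm hb hb1 hPG hV.le))
      (le_norm_of_le_cent (inf_le_left.trans ((c.cores L).trans
        (cent_anti (inf_le_left.trans inf_le_left)))))
      (le_norm_of_le_cent (inf_le_right.trans (cent_anti (inf_le_left.trans inf_le_left))))
  have k3 : ∀ b ∈ A, b ∉ zpowers a → P ⊓ 𝒞[b] ≤ L := fun b hb hab =>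
    k2 b hb (ne_one_of_not_mem hab) fun e => hPL (c.key hL h1 h2 (c.mem le_rfl c.sP.2) hZaM hZa
      (le_norm_of_le_cent hZaC) (le_norm_of_le_cent (hZP.trans hZaC)) (le_norm_of_le_cent
        (h.frob c.ne ha ha1 hb hab hZaM.le hZaM.inv inf_le_right (c.sP.1.pgrp.to_le hZaP) hV.le
          hV.inv hVr (hZaL.trans hLV) (e ▸ bot_le))))
  have k4 : 𝒵(pCoreOf r L) ⊓ 𝒞[a] = ⊥ := by
    by_contra e
    exact hPL (h.gen' hPG c.sP.2 ha ha1 (k2 a ha ha1 e) k3)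
  have k5 : ∀ b ∈ A, b ∉ zpowers a → P ⊓ 𝒞[b] ≤ 𝒞(𝒵(pCoreOf r L)) := fun b hb hab =>
    le_cent_comm.1 (h.frob c.ne hb (ne_one_of_not_mem hab) ha (h.ind_symm ha1 hb hab)
      (inf_le_left.trans hPG) (h.norm_c c.sP.2 hb) inf_le_right (c.sP.1.pgrp.to_le inf_le_left) hV.le
      hV.inv hVr ((k3 b hb hab).trans hLV) (k4 ▸ bot_le))
  have hE : zpowers a ≤ A := zpowers_le.2 ha
  have hTA : A ≤ 𝒩(P ⊓ L) := norm_inf c.sP.2 hL.1.inv
  have hBT : ⁅P ⊓ L, zpowers a⁆ ≤ P ⊓ L := comm_le_left (hE.trans hTA)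
  have hTB : P ⊓ L ≤ 𝒩(⁅P ⊓ L, zpowers a⁆) := le_sup_left.trans (comm_normIn_sup _ _).2
  have k6 : ⁅P ⊓ L, zpowers a⁆ ≤ 𝒞(𝒵(pCoreOf r L)) := by
    refine comm_le_cent (hE.trans hV.inv) (h.gen' (inf_le_left.trans hPG) hTA ha ha1 ?_ ?_)
    · rw [cent_zpowers]
      exact (le_inf inf_le_right ((inf_le_left.trans inf_le_right).trans hLV)).trans le_sup_right
    · exact fun b hb hab =>
        ((inf_le_inf_right _ inf_le_left).trans (k5 b hb hab)).trans le_sup_left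
  have k7 : ⁅P ⊓ L, zpowers a⁆ ≠ ⊥ := fun e => by
    rw [comm_eq_bot_iff, cent_zpowers] at e
    exact h.not_le_cent c.sP c.ne_bot ha ha1 (h.gen' hPG c.sP.2 ha ha1 inf_le_right fun b hb hab =>
      (le_inf inf_le_left (k3 b hb hab)).trans e)
  have hNA : A ≤ 𝒩(P ⊓ 𝒩(P ⊓ L)) := norm_inf c.sP.2 (norm_norm hTA)
  have k8 : P ⊓ 𝒩(P ⊓ L) ≤ L := by
    refine c.key hL h1 h2 (c.mem inf_le_left hNA) (c.mem (hBT.trans inf_le_left)
      (norm_comm hTA (ea_norm h.ea hE))) k7 ?_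
      ((le_inf hZP (inf_le_left.trans (Amb.pCoreOf_le p L))).trans hTB)
      (le_norm_of_le_cent (le_cent_comm.1 k6))
    refine h.gen' (inf_le_left.trans hPG) hNA ha ha1 (norm_comm (inf_le_left.trans inf_le_right)
      (le_norm_of_le_cent ?_)) fun b hb hab => le_trans (le_inf (inf_le_left.trans inf_le_left)
        ((inf_le_inf_right _ inf_le_left).trans (k3 b hb hab))) hTB
    rw [cent_zpowers]; exact inf_le_right
  exact (Amb.lt_inf_normalizer c.sP.1.pgrp (lt_of_le_of_ne (inf_le_left : P ⊓ L ≤ P)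
    fun e => hPL (e.ge.trans inf_le_right))).2 (le_inf inf_le_left k8)

end Cfsg.Agent.WardAb
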