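import Mathlib
import Cfsg.Agent.Solv.WardAb2
import Cfsg.Agent.Solv.SylowSystem
import Cfsg.Agent.Grp.CoprimeIndex

/-! A non-cyclic group of order `q ^ 2` acting coprimely with abelian centralizers: there is no
minimal counterexample to solvability. -/

set_option autoImplicit false
set_option linter.unusedSectionVars false

namespace Cfsg.Agent.WardAb

open Cfsg Cfsg.Agent.FT Cfsg.Agent.PLocal Cfsg.Agent.PLocal.Sig Subgroup
open Cfsg.Agent.PLocal.Amb (IsSyl)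
open scoped Pointwise

variable {X : Type*} [Group X] [Finite X] {q : ℕ} [hq : Fact q.Prime] {A G : Subgroup X}
  {π : Set ℕ} {p r : ℕ} [hp : Fact p.Prime] [hr : Fact r.Prime] {P R : Subgroup X}

theorem le_sup_syl {H T U : Subgroup X} (hT : IsSyl p T H) (hU : IsSyl r U H)
    (h : ∀ s : ℕ, s.Prime → s ∣ Nat.card H → s = p ∨ s = r) : H ≤ T ⊔ U := by
  refine Solv.le_of_forall_sylow_le _ _ fun s hs => ?_
  by_cases hd : s ∣ Nat.card H
  · rcases h s hs.out hd with rfl | rfl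
    · obtain ⟨S, e⟩ := hT.exists_sylow_map
      exact ⟨S, e.le.trans le_sup_left⟩
    · obtain ⟨S, e⟩ := hU.exists_sylow_map
      exact ⟨S, e.le.trans le_sup_right⟩
  · obtain ⟨S⟩ : Nonempty (Sylow s H) := inferInstance
    exact ⟨S, ((Amb.isSyl_map_subtype S).eq_bot_iff.2 hd).le.trans bot_le⟩

theorem Pr.pure (c : Pr q A G π p r P R) {L : Subgroup X} (hL : Mx A G π L)
    (h2 : pCoreOf r L = ⊥) : P ≤ L ∧ L ≤ 𝒩(P) ∧ L ⊓ 𝒞(P) ≤ P := by
  have h := c.h
  have hs := c.solv hL.1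
  have hT := h.syl_inf c.sP hL.1.le hL.1.inv
  have hU := h.syl_inf c.sR hL.1.le hL.1.inv
  have hn : Group.IsNilpotent (FH.res L) := FH.res_eq_bot_iff.1
    (FH.ward hq.out hs h.ea h.card hL.1.inv (not_dvd_of_le hL.1.le h.cop)
      (eq_bot_iff.2 ((inf_le_inf_right _ hL.1.le).trans h.fpf.le)))
  have hLn : L ≤ 𝒩(FH.res L) := FH.norm_res (le_norm_self L)
  have hp' : IsPGroup p (FH.res L) := c.symm.pgrp hL.1 (FH.res_le L)
    ((Solv.NA.isSyl_pCoreOf hn).eq_bot_iff.1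
      (eq_bot_iff.2 ((Amb.pCoreOf_mono_of_normal (FH.res_le L) hLn).trans h2.le)))
  have k1 : FH.res L ≤ P ⊓ L := (Amb.le_pCoreOf hp' (FH.res_le L) hLn).trans hT.pCoreOf_le
  have k2 : L ≤ 𝒩(P ⊓ L) := (le_sup_syl hT hU fun s hs hd => (c.pi s).1 (hL.1.pi s hs hd)).trans
    (sup_le (le_norm_self _) (le_norm_of_comm_le ((FH.comm_le_res hT.le hU.le
      (cop_of_isPGroup hT.pgrp (not_dvd_of_isPGroup c.ne.symm hU.pgrp))).trans k1)))
  have k3 : P ≤ L := by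
    by_cases e : P ⊓ L = ⊥
    · refine le_sup_right.trans (hL.2 _ (hL.1.sup (c.mem le_rfl c.sP.2) ?_) le_sup_left)
      have hr' : IsPGroup r L := c.pgrp hL.1 le_rfl (hT.eq_bot_iff.1 e)
      rw [← Amb.pCoreOf_eq_self hr', h2]
      exact bot_le
    · by_contra hPL
      have hTA : A ≤ 𝒩(P ⊓ L) := norm_inf c.sP.2 hL.1.inv
      exact (Amb.lt_inf_normalizer c.sP.1.pgrp (lt_of_le_of_ne (inf_le_left : P ⊓ L ≤ P)
        fun e => hPL (e.ge.trans inf_le_right))).2 (le_inf inf_le_left (c.le_mx hL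
          (c.mem inf_le_left (norm_inf c.sP.2 (norm_norm hTA))) (c.mem inf_le_left hTA) e k2
          inf_le_right))
  rw [inf_eq_left.2 k3] at k2 hT
  refine ⟨k3, k2, ?_⟩
  rw [← hT.eq_pCoreOf k2]
  refine Amb.charP_iff.1 (PCA.charP_of_isPConstrained (PCA.isPConstrained_of_isSolvable hs) ?_)
  rw [← map_eq_bot_iff_of_injective _ L.subtype_injective, eq_bot_iff, ← h2]
  exact c.core_le hL.1

theorem Pr.core_or (c : Pr q A G π p r P R) {L : Subgroup X} (hL : Mx A G π L) :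
    pCoreOf r L = ⊥ ∨ pCoreOf p L = ⊥ := by
  by_contra hc
  push Not at hc
  exact c.no L hL.1 (c.mixed hL hc.2 hc.1) (c.symm.mixed hL hc.1 hc.2)

theorem Pr.norm_or (c : Pr q A G π p r P R) {b : X} (hb : b ∈ A) (hb1 : b ≠ 1) :
    R ⊓ 𝒞[b] ≤ 𝒩(P) ∨ P ⊓ 𝒞[b] ≤ 𝒩(R) := by
  obtain ⟨L, hL, hle⟩ := ((c.mem inf_le_left (c.h.norm_c c.sP.2 hb)).sup
    (c.symm.mem inf_le_left (c.h.norm_c c.sR.2 hb))
    (le_norm_of_le_cent (c.h.comm hb hb1 c.sP.1.le c.sR.1.le))).exists_mx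
  exact (c.core_or hL).imp (fun e => (le_sup_right.trans hle).trans (c.pure hL e).2.1)
    fun e => (le_sup_left.trans hle).trans (c.symm.pure hL e).2.1

theorem Pr.cent_bot (c : Pr q A G π p r P R) : R ⊓ 𝒞(P) = ⊥ := by
  obtain ⟨L, hL, hle⟩ := ((c.symm.mem inf_le_left (norm_inf c.sR.2 (norm_cent c.sP.2))).sup
    (c.mem le_rfl c.sP.2) (le_norm_of_le_cent inf_le_right)).exists_mx
  rcases c.core_or hL with e | e
  · rw [eq_bot_iff, ← c.inf c.sP.1.pgrp c.sR.1.pgrp]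
    exact le_inf ((le_inf (le_sup_left.trans hle) inf_le_right).trans (c.pure hL e).2.2) inf_le_left
  · exact (c.no L hL.1 (le_sup_right.trans hle) (c.symm.pure hL e).1).elim

theorem Pr.norm_bot (c : Pr q A G π p r P R) : R ⊓ 𝒩(P) = ⊥ := by
  by_contra hne
  have h := c.h
  have hUA : A ≤ 𝒩(R ⊓ 𝒩(P)) := norm_inf c.sR.2 (norm_norm c.sP.2)
  have key : ∀ a ∈ A, a ≠ 1 → R ⊓ 𝒩(P) ⊓ 𝒞[a] ≠ ⊥ → ∀ b ∈ A, b ∉ zpowers a →
      R ⊓ 𝒞[b] ≤ 𝒩(P) := by
    intro a ha ha1 hU b hb hab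
    refine (c.norm_or hb (ne_one_of_not_mem hab)).resolve_right fun e => hU ?_
    have hUR : R ⊓ 𝒩(P) ⊓ 𝒞[a] ≤ R := inf_le_left.trans inf_le_left
    have hUP : R ⊓ 𝒩(P) ⊓ 𝒞[a] ≤ 𝒩(P) := inf_le_left.trans inf_le_right
    rw [eq_bot_iff, ← c.cent_bot]
    refine le_inf hUR (le_cent_comm.1 (h.frob c.ne.symm ha ha1 hb hab (hUR.trans c.sR.1.le)
      (h.norm_c hUA ha) inf_le_right (c.sR.1.pgrp.to_le hUR) c.sP.1.le c.sP.2 c.sP.1.pgrp hUP ?_))
    rw [← comm_eq_bot_iff, eq_bot_iff, ← c.inf c.sP.1.pgrp c.sR.1.pgrp]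
    exact le_inf ((commutator_mono inf_le_left le_rfl).trans (comm_le_left hUP))
      ((commutator_mono le_rfl hUR).trans (comm_le_right e))
  obtain ⟨a, ha, ha1, hU⟩ := h.exists_cent (inf_le_left.trans c.sR.1.le) hUA hne
  refine h.not_le_cent c.sR c.symm.ne_bot ha ha1 (h.gen' c.sR.1.le c.sR.2 ha ha1 inf_le_right
    fun b hb hab => ?_)
  by_contra e
  have hb1 := ne_one_of_not_mem hab
  have k : R ≤ 𝒩(P) := h.gen' c.sR.1.le c.sR.2 ha ha1 (key b hb hb1 (fun e' => e ((le_inf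
    (le_inf inf_le_left (key a ha ha1 hU b hb hab)) inf_le_right).trans (e' ▸ bot_le))) a ha
    (h.ind_symm ha1 hb hab)) (key a ha ha1 hU)
  exact c.no _ ((c.symm.mem le_rfl c.sR.2).sup (c.mem le_rfl c.sP.2) k) le_sup_right le_sup_left

theorem Pr.odd (c : Pr q A G π p r P R) (hp2 : p ≠ 2) : False := by
  obtain ⟨a, ha, ha1, hb⟩ := c.h.big hp2 c.sP c.ne_bot
  refine c.h.not_le_cent c.sR c.symm.ne_bot ha ha1 (c.h.gen' c.sR.1.le c.sR.2 ha ha1 inf_le_right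
    fun b hbA hab => ?_)
  rcases c.norm_or hbA (ne_one_of_not_mem hab) with e | e
  · exact ((le_inf inf_le_left e).trans c.norm_bot.le).trans bot_le
  · exact (hb b hbA hab (eq_bot_iff.2 ((le_inf inf_le_left e).trans c.symm.norm_bot.le))).elim

theorem Pr.elim (c : Pr q A G π p r P R) : False := by
  by_cases e : p = 2
  · exact c.symm.odd fun e' => c.ne (e.trans e'.symm)
  · exact c.odd e

theorem coe_eq_mul {H T U : Subgroup X} (hT : IsSyl p T H) (hU : IsSyl r U H)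
    (h : ∀ s : ℕ, s.Prime → s ∣ Nat.card H → s = p ∨ s = r) : (H : Set X) = (T : Set X) * U := by
  refine Grp.coe_eq_mul_of_coprime_relIndex hT.le hU.le (Nat.coprime_of_dvd fun s hs h1 h2 => ?_)
  rcases h s hs (h1.trans (relIndex_dvd_card T H)) with rfl | rfl
  exacts [hT.not_dvd_relIndex h1, hU.not_dvd_relIndex h2]

theorem Hp.elim (h : Hp q A G) : False := by
  choose P hP using fun p : Nat.Primes => haveI := Fact.mk p.2; h.exists_syl p
  choose S hS using fun p : Nat.Primes => (hP p).1.exists_sylow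
  refine h.nsolv (Solv.isSolvable_of_sylow_system S fun p r => ?_)
  have := Fact.mk p.2
  have := Fact.mk r.2
  by_cases e : p = r
  · rw [e]
  have hpr : (p : ℕ) ≠ r := fun e' => e (Subtype.ext e')
  obtain ⟨H, hH, h1, h2⟩ : ∃ H, Mem A G {(p : ℕ), (r : ℕ)} H ∧ P p ≤ H ∧ P r ≤ H := by
    by_contra hc
    exact Pr.elim ⟨h, hpr, fun s => by simp, hP p, hP r, fun H a b d => hc ⟨H, a, b, d⟩⟩
  have k : ((P p : Set X)) * P r = (P r : Set X) * P p := Solv.permutes_of_coe_eq_mul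
    (coe_eq_mul ((hP p).1.mono h1 hH.le) ((hP r).1.mono h2 hH.le) fun s hs hd => by
      simpa using hH.pi s hs hd)
  have e1 : ∀ t : Nat.Primes, G.subtype '' (S t : Set G) = P t := fun t => by
    rw [← Amb.map_subgroupOf_of_le (hP t).1.le, ← hS]; rfl
  apply Set.image_injective.2 G.subtype_injective
  rw [Set.image_mul, Set.image_mul, e1, e1, k]

end Cfsg.Agent.WardAb
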